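import Cfsg.Agent.H841.SevJ
import Mathlib.GroupTheory.Perm.Cycle.Type

/-!
# Minus type quadratic form of dimension 6 over `F_3` (helper304)

* `card_sing` : totally singular subgroups have at most 9 elements;
* `card_not_two` : subgroups on which the form does not take the value 2 have at most 27 elements;
* `eq_id` : commuting linear maps `k`, `m` of `F_3`-spaces, `k ^ r = 1`, `3 ∤ r`, `m` of 3-power order, `k = 1` on the fixed
  vectors of `m`: then `k = 1`.
-/

set_option autoImplicit false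

namespace Cfsg.Agent.H304.R7.Quad

open Cfsg.Agent.H841.Sev (W I6)

/-- the form -/
abbrev q (u : W) : ZMod 3 := Cfsg.quadFormMinus 2 (ZMod 3) 0 1 u

abbrev x0 (u : W) : ZMod 3 := u (.inl (.inl 0))
abbrev x1 (u : W) : ZMod 3 := u (.inl (.inl 1))
abbrev y0 (u : W) : ZMod 3 := u (.inl (.inr 0))
abbrev y1 (u : W) : ZMod 3 := u (.inl (.inr 1))
abbrev za (u : W) : ZMod 3 := u (.inr 0)
abbrev zb (u : W) : ZMod 3 := u (.inr 1)

/-- the polar form -/
def bq (u v : W) : ZMod 3 := x0 u * y0 v + y0 u * x0 v + (x1 u * y1 v + y1 u * x1 v) + 2 * (za u * za v + zb u * zb v)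

theorem q_eq (u : W) : q u = x0 u * y0 u + x1 u * y1 u + (za u * za u + zb u * zb u) := by
  unfold q Cfsg.quadFormMinus
  rw [Fin.sum_univ_two]
  ring

theorem q_add (u v : W) : q (u + v) = q u + q v + bq u v := by
  rw [q_eq, q_eq, q_eq]
  unfold bq x0 x1 y0 y1 za zb
  simp only [Pi.add_apply]
  ring

theorem q_sub (u v : W) : q (u - v) = q u + q v - bq u v := by
  rw [q_eq, q_eq, q_eq]
  unfold bq x0 x1 y0 y1 za zb
  simp only [Pi.sub_apply]
  ring

theorem ext_six {u : W} (h1 : x0 u = 0) (h2 : x1 u = 0) (h3 : y0 u = 0) (h4 : y1 u = 0) (h5 : za u = 0) (h6 : zb u = 0) :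
    u = 0 := by
  funext i
  rcases i with (i | i) | i
  · fin_cases i
    · exact h1
    · exact h2
  · fin_cases i
    · exact h3
    · exact h4
  · fin_cases i
    · exact h5
    · exact h6

theorem sq_sum : ∀ a b : ZMod 3, a * a + b * b = 0 → a = 0 ∧ b = 0 := by decide

theorem z_zero {u : W} (h : q u = 0) (h1 : x0 u = 0) (h2 : x1 u = 0) : za u = 0 ∧ zb u = 0 := by
  rw [q_eq, h1, h2, zero_mul, zero_mul, zero_add, zero_add] at h
  exact sq_sum _ _ h

theorem card_le_of_map {U : AddSubgroup W} (f : W → ZMod 3 × ZMod 3) (hf : ∀ u v, f (u - v) = f u - f v)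
    (h : ∀ u ∈ U, f u = 0 → u = 0) : Nat.card U ≤ 9 := by
  have hinj : Function.Injective (fun u : U => f u) := by
    intro u v huv
    apply Subtype.ext
    apply sub_eq_zero.1
    apply h _ (U.sub_mem u.2 v.2)
    rw [hf]
    exact sub_eq_zero.2 huv
  refine (Nat.card_le_card_of_injective _ hinj).trans ?_
  rw [Nat.card_prod, Nat.card_zmod]

theorem arith : ∀ a b c d : ZMod 3, (a ≠ 0 ∨ b ≠ 0) → (c ≠ 0 ∨ d ≠ 0) → a * c + b * d = 0 →
    (a ≠ 0 ∧ d ≠ 0) ∨ (b ≠ 0 ∧ c ≠ 0) := by decide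

/-- totally singular subgroups -/
theorem card_sing {U : AddSubgroup W} (hU : ∀ u ∈ U, q u = 0) : Nat.card U ≤ 9 := by
  have hb : ∀ u ∈ U, ∀ v ∈ U, bq u v = 0 := by
    intro u hu v hv
    have h := q_add u v
    rw [hU u hu, hU v hv, hU _ (U.add_mem hu hv), zero_add, zero_add] at h
    exact h.symm
  by_cases h0 : ∃ u ∈ U, x0 u ≠ 0 ∨ x1 u ≠ 0
  · by_cases h1 : ∃ u ∈ U, x0 u = 0 ∧ x1 u = 0 ∧ (y0 u ≠ 0 ∨ y1 u ≠ 0)
    · obtain ⟨u, hu, hux⟩ := h0
      obtain ⟨v, hv, hv0, hv1, hvy⟩ := h1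
      have hz := z_zero (hU v hv) hv0 hv1
      have key : ∀ w ∈ U, x0 w * y0 v + x1 w * y1 v = 0 := by
        intro w hw
        have h := hb w hw v hv
        unfold bq at h
        rw [hv0, hv1, hz.1, hz.2] at h
        simpa using h
      have key2 : ∀ w ∈ U, x0 w = 0 → x1 w = 0 → x0 u * y0 w + x1 u * y1 w = 0 := by
        intro w hw hw0 hw1
        have h := hb u hu w hw
        have hz := z_zero (hU w hw) hw0 hw1
        unfold bq at h
        rw [hw0, hw1, hz.1, hz.2] at h
        simpa using h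
      rcases arith _ _ _ _ hux hvy (key u hu) with ⟨ha, hd⟩ | ⟨ha, hd⟩
      · -- the coordinates `x0`, `y1`
        refine card_le_of_map (fun u => (x0 u, y1 u)) (fun _ _ => rfl) ?_
        intro w hw h
        have w0 : x0 w = 0 := congrArg Prod.fst h
        have w1 : y1 w = 0 := congrArg Prod.snd h
        have k1 := key w hw
        rw [w0, zero_mul, zero_add] at k1
        have w2 : x1 w = 0 := (mul_eq_zero.1 k1).resolve_right hd
        have k2 := key2 w hw w0 w2
        rw [w1, mul_zero, add_zero] at k2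
        have w3 : y0 w = 0 := (mul_eq_zero.1 k2).resolve_left ha
        have hz := z_zero (hU w hw) w0 w2
        exact ext_six w0 w2 w3 w1 hz.1 hz.2
      · refine card_le_of_map (fun u => (x1 u, y0 u)) (fun _ _ => rfl) ?_
        intro w hw h
        have w0 : x1 w = 0 := congrArg Prod.fst h
        have w1 : y0 w = 0 := congrArg Prod.snd h
        have k1 := key w hw
        rw [w0, zero_mul, add_zero] at k1
        have w2 : x0 w = 0 := (mul_eq_zero.1 k1).resolve_right hd
        have k2 := key2 w hw w2 w0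
        rw [w1, mul_zero, zero_add] at k2
        have w3 : y1 w = 0 := (mul_eq_zero.1 k2).resolve_left ha
        have hz := z_zero (hU w hw) w2 w0
        exact ext_six w2 w0 w1 w3 hz.1 hz.2
    · push Not at h1
      refine card_le_of_map (fun u => (x0 u, x1 u)) (fun _ _ => rfl) ?_
      intro w hw h
      have w0 : x0 w = 0 := congrArg Prod.fst h
      have w1 : x1 w = 0 := congrArg Prod.snd h
      have w2 := h1 w hw w0 w1
      have hz := z_zero (hU w hw) w0 w1
      exact ext_six w0 w1 w2.1 w2.2 hz.1 hz.2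
  · push Not at h0
    refine card_le_of_map (fun u => (y0 u, y1 u)) (fun _ _ => rfl) ?_
    intro w hw h
    have w0 : y0 w = 0 := congrArg Prod.fst h
    have w1 : y1 w = 0 := congrArg Prod.snd h
    have w2 := h0 w hw
    have hz := z_zero (hU w hw) w2.1 w2.2
    exact ext_six w2.1 w2.2 w0 w1 hz.1 hz.2

theorem arith2 : ∀ a b : ZMod 3, a ≠ 2 → b ≠ 2 → ∀ c : ZMod 3, a + b + c ≠ 2 → a + b - c ≠ 2 → a = 0 → b = 0 → c = 0 := by
  decide

theorem arith3 : ∀ c : ZMod 3, (1 : ZMod 3) + 1 + c ≠ 2 → 1 + 1 + c = 0 ∨ 1 + 1 - c = 0 := by decide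

theorem arith4 : ∀ a : ZMod 3, a ≠ 2 → a ≠ 0 → a = 1 := by decide

/-- subgroups on which the form does not take the value 2 -/
theorem card_not_two {S : AddSubgroup W} (hS : ∀ u ∈ S, q u ≠ 2) : Nat.card S ≤ 27 := by
  have q0 : q 0 = 0 := by
    rw [q_eq]
    show (0 : ZMod 3) * 0 + 0 * 0 + (0 * 0 + 0 * 0) = 0
    decide
  have qn : ∀ u, q (-u) = q u := by
    intro u
    have h := q_sub 0 u
    rw [zero_sub, q0, zero_add] at h
    have hb : bq 0 u = 0 := by
      unfold bq
      show (0 : ZMod 3) * _ + 0 * _ + (0 * _ + 0 * _) + 2 * (0 * _ + 0 * _) = 0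
      ring
    rw [h, hb, sub_zero]
  let U : AddSubgroup W :=
    { carrier := {u | u ∈ S ∧ q u = 0}
      zero_mem' := ⟨S.zero_mem, q0⟩
      add_mem' := by
        rintro u v ⟨hu, hu0⟩ ⟨hv, hv0⟩
        refine ⟨S.add_mem hu hv, ?_⟩
        have h1 := hS _ (S.add_mem hu hv)
        have h2 := hS _ (S.sub_mem hu hv)
        rw [q_add] at h1
        rw [q_sub] at h2
        have h3 := arith2 _ _ (hS u hu) (hS v hv) _ h1 h2 hu0 hv0
        rw [q_add, hu0, hv0, h3, add_zero, add_zero]
      neg_mem' := by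
        rintro u ⟨hu, hu0⟩
        exact ⟨S.neg_mem hu, by rw [qn, hu0]⟩ }
  have hUm : ∀ u, u ∈ U ↔ u ∈ S ∧ q u = 0 := fun u => Iff.rfl
  have hU : Nat.card U ≤ 9 := card_sing fun u hu => ((hUm u).1 hu).2
  have key : ∃ u1 : W, ∀ u ∈ S, ∃ c : ZMod 3, u - c • u1 ∈ U := by
    by_cases h : ∃ u ∈ S, q u ≠ 0
    · obtain ⟨u1, hu1, hq1⟩ := h
      have hq1' := arith4 _ (hS u1 hu1) hq1
      refine ⟨u1, fun u hu => ?_⟩
      by_cases hq : q u = 0
      · exact ⟨0, by rw [zero_smul, sub_zero]; exact (hUm u).2 ⟨hu, hq⟩⟩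
      · have hq' := arith4 _ (hS u hu) hq
        have h1 := hS _ (S.add_mem hu hu1)
        rw [q_add, hq', hq1'] at h1
        rcases arith3 _ h1 with h2 | h2
        · refine ⟨-1, ?_⟩
          rw [neg_one_smul, sub_neg_eq_add]
          refine (hUm _).2 ⟨S.add_mem hu hu1, ?_⟩
          rw [q_add, hq', hq1', h2]
        · refine ⟨1, ?_⟩
          rw [one_smul]
          refine (hUm _).2 ⟨S.sub_mem hu hu1, ?_⟩
          rw [q_sub, hq', hq1', h2]
    · push Not at h
      exact ⟨0, fun u hu => ⟨0, by rw [zero_smul, sub_zero]; exact (hUm u).2 ⟨hu, h u hu⟩⟩⟩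
  obtain ⟨u1, h1⟩ := key
  have h2 : ∀ u : S, ∃ c : ZMod 3, (u : W) - c • u1 ∈ U := fun u => h1 u u.2
  choose c hc using h2
  have hinj : Function.Injective (fun u : S => ((c u, (⟨(u : W) - c u • u1, hc u⟩ : U)) : ZMod 3 × U)) := by
    intro u v huv
    have e1 : c u = c v := congrArg Prod.fst huv
    have e2 : (u : W) - c u • u1 = (v : W) - c v • u1 := congrArg (fun x : ZMod 3 × U => (x.2 : W)) huv
    rw [e1] at e2
    exact Subtype.ext (sub_left_injective e2)
  calc Nat.card S ≤ Nat.card (ZMod 3 × U) := Nat.card_le_card_of_injective _ hinj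
    _ = 3 * Nat.card U := by rw [Nat.card_prod, Nat.card_zmod]
    _ ≤ 3 * 9 := Nat.mul_le_mul_left _ hU
    _ = 27 := by norm_num

/-! ### Commuting linear maps -/

universe u

theorem fix_modEq {α : Type u} [Finite α] (f : α → α) {p n : ℕ} [Fact p.Prime] (hf : f^[p ^ n] = id) :
    Nat.card α ≡ Nat.card {x // f x = x} [MOD p] := by
  classical
  have := Fintype.ofFinite α
  have h := Equiv.Perm.card_fixedPoints_modEq (f := (f : Function.End α)) (p := p) (n := n) hf
  rw [Nat.card_eq_fintype_card, Nat.card_eq_fintype_card]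
  have e : Fintype.card (Function.fixedPoints f) = Fintype.card {x // f x = x} := Fintype.card_congr (Equiv.refl _)
  rw [← e]
  exact h

theorem eq_id {X : Type u} [AddCommGroup X] [Module (ZMod 3) X] [Finite X] {k m : X →ₗ[ZMod 3] X} {r b : ℕ}
    (hk : (⇑k)^[r] = id) (hr : (r : ZMod 3) ≠ 0) (hm : (⇑m)^[3 ^ b] = id) (hc : ∀ u, k (m u) = m (k u))
    (hf : ∀ u, m u = u → k u = u) : k = LinearMap.id := by
  have f3 : Fact (Nat.Prime 3) := ⟨by norm_num⟩
  let R : AddSubgroup X := ((k - LinearMap.id).range).toAddSubgroup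
  have hR : ∀ x, x ∈ R ↔ ∃ w, k w - w = x := fun x => Iff.rfl
  have h0 : ∀ x ∈ R, m x = x → x = 0 := by
    intro x hx hmx
    obtain ⟨w, hw⟩ := (hR x).1 hx
    have hkx := hf x hmx
    have hi : ∀ i : ℕ, (⇑k)^[i] w = w + (i : ZMod 3) • x := by
      intro i
      induction i with
      | zero => rw [Nat.cast_zero, zero_smul, add_zero]; rfl
      | succ i ih =>
        rw [Function.iterate_succ_apply', ih, map_add, map_smul, hkx, Nat.cast_succ, add_smul, one_smul, ← hw]
        abel
    have h1 := hi r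
    rw [hk] at h1
    have h2 : (r : ZMod 3) • x = 0 := by
      have h3 : w + 0 = w + (r : ZMod 3) • x := by rw [add_zero]; exact h1
      exact (add_left_cancel h3).symm
    exact (smul_eq_zero.1 h2).resolve_left hr
  have hmR : ∀ x : R, m (x : X) ∈ R := by
    intro x
    obtain ⟨w, hw⟩ := (hR x).1 x.2
    refine (hR _).2 ⟨m w, ?_⟩
    rw [hc, ← hw, map_sub]
  let f : R → R := fun x => ⟨m (x : X), hmR x⟩
  have hf' : ∀ (n : ℕ) (x : R), ((f^[n] x : R) : X) = (⇑m)^[n] (x : X) := by
    intro n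
    induction n with
    | zero => intro x; rfl
    | succ n ih => intro x; rw [Function.iterate_succ_apply, Function.iterate_succ_apply, ih]
  have hf3 : f^[3 ^ b] = id := by
    funext x
    apply Subtype.ext
    rw [hf', hm]
    rfl
  have h1 := fix_modEq f hf3
  have h2 : Nat.card {x : R // f x = x} = 1 := by
    rw [Nat.card_eq_one_iff_unique]
    refine ⟨⟨fun x y => ?_⟩, ⟨⟨0, Subtype.ext (map_zero m)⟩⟩⟩
    have hx : ((x : R) : X) = 0 := h0 _ (x : R).2 (congrArg Subtype.val x.2)
    have hy : ((y : R) : X) = 0 := h0 _ (y : R).2 (congrArg Subtype.val y.2)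
    exact Subtype.ext (Subtype.ext (hx.trans hy.symm))
  rw [h2] at h1
  have h3 : ∀ x : R, x = 0 := by
    intro x
    by_contra hx
    have h4 : addOrderOf x = 3 := by
      refine addOrderOf_eq_prime ?_ hx
      apply Subtype.ext
      show (3 : ℕ) • (x : X) = 0
      rw [← Nat.cast_smul_eq_nsmul (ZMod 3)]
      rw [ZMod.natCast_self 3, zero_smul]
    have h5 : 3 ∣ Nat.card R := h4 ▸ addOrderOf_dvd_natCard x
    unfold Nat.ModEq at h1
    omega
  ext w
  have h4 := h3 ⟨k w - w, (hR _).2 ⟨w, rfl⟩⟩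
  have h5 : k w - w = 0 := congrArg Subtype.val h4
  exact sub_eq_zero.1 h5

/-- a linear map of order 5 or 7 is trivial on invariant subgroups of order at most 27 -/
theorem fix_small {X : Type u} [AddCommGroup X] [Module (ZMod 3) X] [Finite X] {S : AddSubgroup X} {n : ℕ}
    (hX : Nat.card X = 3 ^ n) (hS : Nat.card S ≤ 27) {k : X →ₗ[ZMod 3] X} (hkS : ∀ x ∈ S, k x ∈ S) {r : ℕ}
    (hr : r = 5 ∨ r = 7) (hk : (⇑k)^[r] = id) : ∀ x ∈ S, k x = x := by
  have fr : Fact (Nat.Prime r) := ⟨by rcases hr with rfl | rfl <;> norm_num⟩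
  let f : S → S := fun x => ⟨k (x : X), hkS _ x.2⟩
  have hf' : ∀ (n : ℕ) (x : S), ((f^[n] x : S) : X) = (⇑k)^[n] (x : X) := by
    intro n
    induction n with
    | zero => intro x; rfl
    | succ n ih => intro x; rw [Function.iterate_succ_apply, Function.iterate_succ_apply, ih]
  have hfr : f^[r ^ 1] = id := by
    funext x
    apply Subtype.ext
    rw [hf', pow_one, hk]
    rfl
  have h1 := fix_modEq f hfr
  let F : AddSubgroup S :=
    { carrier := {x | k (x : X) = (x : X)}
      zero_mem' := map_zero k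
      add_mem' := by
        intro a b ha hb
        show k ((a : X) + (b : X)) = (a : X) + (b : X)
        rw [map_add, show k (a : X) = a from ha, show k (b : X) = b from hb]
      neg_mem' := by
        intro a ha
        show k (-(a : X)) = -(a : X)
        rw [map_neg, show k (a : X) = a from ha] }
  have hF : Nat.card {x : S // f x = x} = Nat.card F :=
    Nat.card_congr (Equiv.subtypeEquivRight fun x => ⟨fun h => congrArg Subtype.val h, fun h => Subtype.ext h⟩)
  rw [hF] at h1
  obtain ⟨d, -, hd⟩ := (Nat.dvd_prime_pow Nat.prime_three).1 (hX ▸ AddSubgroup.card_addSubgroup_dvd_card S)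
  obtain ⟨e, hed, he⟩ := (Nat.dvd_prime_pow Nat.prime_three).1 (hd ▸ AddSubgroup.card_addSubgroup_dvd_card F)
  have hd3 : d ≤ 3 := by
    by_contra hcon
    have : 3 ^ 4 ≤ 3 ^ d := Nat.pow_le_pow_right (by norm_num) (by omega)
    omega
  have hde : e = d := by
    rw [hd, he] at h1
    unfold Nat.ModEq at h1
    rcases hr with rfl | rfl <;> interval_cases d <;> interval_cases e <;> first | rfl | (exfalso; revert h1; norm_num)
  have hT : F = ⊤ := AddSubgroup.eq_top_of_card_eq _ (by rw [he, hd, hde])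
  intro x hx
  have : (⟨x, hx⟩ : S) ∈ F := by rw [hT]; trivial
  exact this

end Cfsg.Agent.H304.R7.Quad
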